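import Mathlib.RingTheory.TensorProduct.Basic
import Mathlib.RingTheory.TensorProduct.Maps
import Mathlib.RingTheory.FiniteType
import Mathlib.LinearAlgebra.Basis.VectorSpace
import Mathlib.RingTheory.Localization.Away.Basic
import Mathlib.RingTheory.Localization.FractionRing

/-!
# Descent of homomorphisms of algebras to subfields, and of finitely generated subrings
-/

set_option autoImplicit false

open TensorProduct

universe u v w

namespace Groth.Agent.Pi1.H393.AlgDesc

section Lift

/-- A ring map from a finitely generated ring lifts along an injective map whose range contains the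
images of the generators. -/
theorem exists_lift {A N L : Type*} [CommRing A] [CommRing N] [CommRing L] (ι : A →+* L)
    (j : N →+* L) (hj : Function.Injective j) (T : Set A) (hT : Algebra.adjoin ℤ T = ⊤)
    (h : ∀ g ∈ T, ι g ∈ Set.range j) : ∃ ρ : A →+* N, j.comp ρ = ι := by
  have h1 : ∀ a : A, ι a ∈ j.range := by
    intro a
    have ha : a ∈ Algebra.adjoin ℤ T := by rw [hT]; trivial
    induction ha using Algebra.adjoin_induction with
    | mem x hx => exact h x hx
    | algebraMap r =>
      have : ι (algebraMap ℤ A r) = (r : L) := by simp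
      rw [this]
      exact intCast_mem _ r
    | add x y _ _ hx hy => rw [map_add]; exact Subring.add_mem _ hx hy
    | mul x y _ _ hx hy => rw [map_mul]; exact Subring.mul_mem _ hx hy
  let ε : N ≃+* j.range := RingEquiv.ofBijective j.rangeRestrict
    ⟨fun x y hxy => hj (congrArg Subtype.val hxy), j.rangeRestrict_surjective⟩
  refine ⟨ε.symm.toRingHom.comp (ι.codRestrict j.range h1), ?_⟩
  ext a
  have h2 : ε (ε.symm (ι.codRestrict j.range h1 a)) = ι.codRestrict j.range h1 a :=
    ε.apply_symm_apply _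
  exact congrArg Subtype.val h2

end Lift

section Field

variable {F K : Type*} [Field F] [Field K] [Algebra F K]
  {A C : Type*} [CommRing A] [CommRing C] [Algebra A F] [Algebra A K] [IsScalarTower A F K]
  [Algebra A C]

variable (F K A C) in
/-- The base change map `F ⊗ C → K ⊗ C`. -/
noncomputable def u : F ⊗[A] C →ₐ[F] K ⊗[A] C :=
  Algebra.TensorProduct.map (Algebra.ofId F K) (AlgHom.id A C)

theorem u_tmul (x : F) (c : C) : u F K A C (x ⊗ₜ c) = algebraMap F K x ⊗ₜ c := rfl

theorem u_injective : Function.Injective (u F K A C) := by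
  obtain ⟨r, hr⟩ := (Algebra.linearMap F K).exists_leftInverse_of_injective
    (LinearMap.ker_eq_bot.mpr (algebraMap F K).injective)
  let r' : K →ₗ[A] F := r.restrictScalars A
  have h : ∀ z, (r'.rTensor C) (u F K A C z) = z := by
    intro z
    induction z with
    | zero => simp
    | add x y hx hy => rw [map_add, map_add, hx, hy]
    | tmul x c =>
      rw [u_tmul, LinearMap.rTensor_tmul]
      congr 1
      exact congr($hr x)
  exact Function.LeftInverse.injective h

end Field

section Descent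

variable {K : Type*} [Field K]
  {A C B D : Type*} [CommRing A] [CommRing C] [CommRing B] [CommRing D]
  [Algebra A K] [Algebra B K] [Algebra A C] [Algebra B D]

/-- The coefficients of an element of a tensor product. -/
theorem exists_finset (z : K ⊗[B] D) : ∃ Λ : Finset K, ∀ (F : Type v) [Field F] [Algebra F K]
    [Algebra B F] [IsScalarTower B F K], (Λ : Set K) ⊆ Set.range (algebraMap F K) →
    z ∈ Set.range (u F K B D) := by
  classical
  induction z with
  | zero => exact ⟨∅, fun F _ _ _ _ _ => ⟨0, map_zero _⟩⟩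
  | tmul x d =>
    refine ⟨{x}, fun F _ _ _ _ h => ?_⟩
    obtain ⟨y, hy⟩ := h (by simp : x ∈ _)
    exact ⟨y ⊗ₜ d, by rw [u_tmul, hy]⟩
  | add x y hx hy =>
    obtain ⟨Λ₁, h1⟩ := hx
    obtain ⟨Λ₂, h2⟩ := hy
    refine ⟨Λ₁ ∪ Λ₂, fun F _ _ _ _ h => ?_⟩
    rw [Finset.coe_union, Set.union_subset_iff] at h
    obtain ⟨a, ha⟩ := h1 F h.1
    obtain ⟨b, hb⟩ := h2 F h.2
    exact ⟨a + b, by rw [map_add, ha, hb]⟩

/-- A homomorphism `K ⊗ C → K ⊗ D` is defined over every subfield containing a suitable finite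
set. -/
theorem exists_hom [Algebra.FiniteType A C] (φ : K ⊗[A] C →ₐ[K] K ⊗[B] D) :
    ∃ Λ : Finset K, ∀ (F : Type v) [Field F] [Algebra F K] [Algebra A F] [Algebra B F]
      [IsScalarTower A F K] [IsScalarTower B F K], (Λ : Set K) ⊆ Set.range (algebraMap F K) →
      ∃ ψ : F ⊗[A] C →ₐ[F] F ⊗[B] D, ∀ x, u F K B D (ψ x) = φ (u F K A C x) := by
  classical
  obtain ⟨T, hT⟩ := (inferInstance : Algebra.FiniteType A C).out
  choose Λ hΛ using fun c : C => exists_finset.{v} (φ (1 ⊗ₜ c))
  refine ⟨T.biUnion Λ, fun F _ _ _ _ _ _ h => ?_⟩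
  let W : Subalgebra F (K ⊗[B] D) := (u F K B D).range
  have h1 : ∀ c : C, φ (1 ⊗ₜ c) ∈ W := by
    intro c
    have hc : c ∈ Algebra.adjoin A (T : Set C) := by rw [hT]; trivial
    induction hc using Algebra.adjoin_induction with
    | mem x hx =>
      refine hΛ x F (subset_trans ?_ h)
      intro y hy
      simp only [Finset.coe_biUnion, Set.mem_iUnion]
      exact ⟨x, hx, hy⟩
    | algebraMap r =>
      have h2 : (1 : K) ⊗ₜ[A] algebraMap A C r = algebraMap K (K ⊗[A] C) (algebraMap A K r) := by
        rw [Algebra.algebraMap_eq_smul_one (A := C), ← TensorProduct.smul_tmul, Algebra.smul_def,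
          mul_one]
        rfl
      rw [h2, AlgHom.commutes]
      refine ⟨algebraMap F _ (algebraMap A F r), ?_⟩
      change u F K B D (algebraMap F _ (algebraMap A F r)) = _
      rw [AlgHom.commutes, IsScalarTower.algebraMap_apply A F K,
        ← IsScalarTower.algebraMap_apply F K (K ⊗[B] D)]
    | add x y _ _ hx hy => rw [TensorProduct.tmul_add, map_add]; exact W.add_mem hx hy
    | mul x y _ _ hx hy =>
      have h2 : (1 : K) ⊗ₜ[A] (x * y) = (1 ⊗ₜ x) * (1 ⊗ₜ y) := by
        rw [Algebra.TensorProduct.tmul_mul_tmul, mul_one]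
      rw [h2, map_mul]
      exact W.mul_mem hx hy
  have h2 : ∀ x : F ⊗[A] C, φ (u F K A C x) ∈ W := by
    intro x
    induction x with
    | zero => rw [map_zero, map_zero]; exact W.zero_mem
    | add x y hx hy => rw [map_add, map_add]; exact W.add_mem hx hy
    | tmul x c =>
      have h3 : u F K A C (x ⊗ₜ c) = algebraMap F K x • ((1 : K) ⊗ₜ[A] c) := by
        rw [u_tmul, TensorProduct.smul_tmul', smul_eq_mul, mul_one]
      rw [h3, map_smul, algebraMap_smul]
      exact W.smul_mem (h1 c) x
  let e := AlgEquiv.ofInjective (u F K B D) u_injective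
  let φ' : F ⊗[A] C →ₐ[F] W := ((φ.restrictScalars F).comp (u F K A C)).codRestrict W h2
  refine ⟨e.symm.toAlgHom.comp φ', fun x => ?_⟩
  have h3 : e (e.symm (φ' x)) = φ' x := e.apply_symm_apply _
  exact congrArg Subtype.val h3

/-- An isomorphism `K ⊗ C ≃ K ⊗ D` is defined over every subfield containing a suitable finite
set. -/
theorem exists_equiv [Algebra.FiniteType A C] [Algebra.FiniteType B D]
    (φ : K ⊗[A] C ≃ₐ[K] K ⊗[B] D) :
    ∃ Λ : Finset K, ∀ (F : Type v) [Field F] [Algebra F K] [Algebra A F] [Algebra B F]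
      [IsScalarTower A F K] [IsScalarTower B F K], (Λ : Set K) ⊆ Set.range (algebraMap F K) →
      Nonempty (F ⊗[A] C ≃ₐ[F] F ⊗[B] D) := by
  classical
  obtain ⟨Λ₁, h1⟩ := exists_hom.{v} φ.toAlgHom
  obtain ⟨Λ₂, h2⟩ := exists_hom.{v} φ.symm.toAlgHom
  refine ⟨Λ₁ ∪ Λ₂, fun F _ _ _ _ _ _ h => ?_⟩
  rw [Finset.coe_union, Set.union_subset_iff] at h
  obtain ⟨ψ₁, hψ₁⟩ := h1 F h.1
  obtain ⟨ψ₂, hψ₂⟩ := h2 F h.2
  refine ⟨AlgEquiv.ofAlgHom ψ₁ ψ₂ ?_ ?_⟩
  · refine AlgHom.ext fun x => u_injective (K := K) ?_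
    rw [AlgHom.comp_apply, hψ₁, hψ₂]
    exact φ.apply_symm_apply _
  · refine AlgHom.ext fun x => u_injective (K := K) ?_
    rw [AlgHom.comp_apply, hψ₂, hψ₁]
    exact φ.symm_apply_apply _

end Descent

end Groth.Agent.Pi1.H393.AlgDesc
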