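import Groth.Agent.Pi1.H393.MvModel
import Groth.Agent.EtpbcB.LocAcycDesc
import Groth.Agent.Hensel.Lazard

/-!
# Approximation of an ind-étale algebra over `O[X_i]`, `O` normal, by Noetherian normal models

`R` ind-étale over `O[X_i]` (Lazard form), `O` a normal domain: every map from a finitely generated
ring to `R` factors through an étale algebra over `O₁[X_i]`, where `O₁` is a finitely generated
normal subring of `O`.
-/

set_option autoImplicit false

open MvPolynomial TensorProduct

universe u

namespace Groth.Agent.Pi1.H393.Approx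

open MvModel

/-- A finite subset of a normal domain is contained in a finitely generated normal subring. -/
theorem exists_normal_subring {O : Type u} [CommRing O] [IsDomain O] [IsIntegrallyClosed O]
    (G : Finset O) : ∃ O₁ : Subring O, (G : Set O) ⊆ O₁ ∧
      (∃ T₁ : Finset O, Subring.closure (T₁ : Set O) = O₁) ∧ IsNoetherianRing O₁ ∧
      IsIntegrallyClosed O₁ := by
  obtain ⟨A₁, h1, -, h2, h3, h4, -⟩ := EtpbcB.LocAcycDesc.exists_normal
    (Subring.closure (G : Set O)) G rfl ∅ (by simp)
  exact ⟨A₁, subset_trans Subring.subset_closure h1, h2, h3, h4⟩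

variable {O : Type u} [CommRing O] [IsDomain O] [IsIntegrallyClosed O] {σ : Type}
  {R : Type u} [CommRing R] [Algebra (MvPolynomial σ O) R]

/-- Every map from a finitely generated ring to an ind-étale `O[X_i]`-algebra `R` factors through an
étale algebra over `O₁[X_i]`, `O₁` a finitely generated normal subring of `O`. -/
theorem exists_approx (hL : Hensel.Lazard.Laz (MvPolynomial σ O) R)
    (M : Type u) [CommRing M] [Algebra.FiniteType ℤ M] (μ : M →+* R) :
    ∃ (O₁ : Subring O) (_ : ∃ T₁ : Finset O, Subring.closure (T₁ : Set O) = O₁)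
      (_ : IsNoetherianRing O₁) (_ : IsIntegrallyClosed O₁)
      (E : Type u) (_ : CommRing E) (_ : Algebra (MvPolynomial σ O₁) E)
      (_ : Algebra.Etale (MvPolynomial σ O₁) E) (a : M →+* E) (χ : E →+* R),
      χ.comp a = μ ∧ χ.comp (algebraMap (MvPolynomial σ O₁) E) =
        (algebraMap (MvPolynomial σ O) R).comp (MvPolynomial.map O₁.subtype) := by
  classical
  have hM : Algebra.FinitePresentation ℤ M := Algebra.FinitePresentation.of_finiteType.mp ‹_›
  let P := MvPolynomial σ O
  let φ : P ⊗[ℤ] M →ₐ[P] R := Algebra.TensorProduct.lift (Algebra.ofId P R)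
    (μ.toIntAlgHom) (fun _ _ => Commute.all _ _)
  obtain ⟨E, _, _, _, ψ, χ, hχ⟩ := hL (P ⊗[ℤ] M) φ
  obtain ⟨T, hT⟩ := (inferInstance : Algebra.FiniteType ℤ M).out
  let α : M →+* E := ψ.toRingHom.comp (Algebra.TensorProduct.includeRight : M →ₐ[ℤ] P ⊗[ℤ] M).toRingHom
  obtain ⟨G₀, S, hG⟩ := exists_model σ O E (T.image α)
  obtain ⟨O₁, h1, h2, h3, h4⟩ := exists_normal_subring G₀
  obtain ⟨h5, h6⟩ := hG O₁ h1
  have hmem : ∀ m : M, α m ∈ model σ O₁ (S : Set E) := by
    intro m
    have hm : m ∈ Algebra.adjoin ℤ (T : Set M) := by rw [hT]; trivial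
    induction hm using Algebra.adjoin_induction with
    | mem x hx => exact h5 (by simpa using ⟨x, hx, rfl⟩)
    | algebraMap r =>
      have : α (algebraMap ℤ M r) = (r : E) := by simp
      rw [this]
      exact intCast_mem _ r
    | add x y _ _ hx hy => rw [map_add]; exact Subring.add_mem _ hx hy
    | mul x y _ _ hx hy => rw [map_mul]; exact Subring.mul_mem _ hx hy
  refine ⟨O₁, h2, h3, h4, model σ O₁ (S : Set E), inferInstance, inferInstance, h6,
    α.codRestrict _ hmem, χ.toRingHom.comp (model σ O₁ (S : Set E)).subtype, ?_, ?_⟩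
  · ext m
    change χ (ψ (1 ⊗ₜ m)) = μ m
    have h7 : χ (ψ (1 ⊗ₜ m)) = φ (1 ⊗ₜ m) := congr($hχ (1 ⊗ₜ m))
    rw [h7]
    simp [φ]
  · ext p
    · change χ ((algebraMap (MvPolynomial σ O₁) (model σ O₁ (S : Set E)) (C p) : _) : E) = _
      rw [coe_algebraMap_model, AlgHom.commutes]
      rfl
    · change χ ((algebraMap (MvPolynomial σ O₁) (model σ O₁ (S : Set E)) (X p) : _) : E) = _
      rw [coe_algebraMap_model, AlgHom.commutes]
      rfl

end Groth.Agent.Pi1.H393.Approx
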