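import Groth.Agent.Pi1.H393.Approx
import Groth.Agent.Etcore.NormalEtale
import Groth.Agent.Desc.NormalSmooth
import Mathlib.RingTheory.Algebraic.Integral
import Mathlib.RingTheory.Unramified.Field
import Mathlib.RingTheory.Flat.TorsionFree

/-!
# Approximation of an ind-étale domain over `O[X_i]` by Noetherian normal domains

As in `Approx`, with the model a normal domain which injects into `R`.
-/

set_option autoImplicit false

open MvPolynomial TensorProduct

universe u

namespace Groth.Agent.Pi1.H393.ApproxDom

/-- Elements of an étale algebra over a domain are algebraic. -/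
theorem isAlgebraic_of_etale (R C : Type u) [CommRing R] [IsDomain R] [CommRing C] [Algebra R C]
    [Algebra.Etale R C] (c : C) : IsAlgebraic R c := by
  let K := FractionRing R
  have hfin : Module.Finite K (K ⊗[R] C) := Algebra.FormallyUnramified.finite_of_free K _
  have h1 : IsAlgebraic K ((1 : K) ⊗ₜ[R] c) := Algebra.IsAlgebraic.isAlgebraic _
  have h2 : IsAlgebraic R ((1 : K) ⊗ₜ[R] c) :=
    (IsFractionRing.isAlgebraic_iff R K (K ⊗[R] C)).mpr h1
  have hinj : Function.Injective (Algebra.TensorProduct.includeRight : C →ₐ[R] K ⊗[R] C) :=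
    Algebra.TensorProduct.includeRight_injective (IsFractionRing.injective R K)
  exact (isAlgebraic_algHom_iff _ hinj).mp h2

/-- A ring map from a domain étale over `R`, injective on `R`, is injective. -/
theorem injective_of_etale {R C D : Type u} [CommRing R] [IsDomain R] [CommRing C] [IsDomain C]
    [Algebra R C] [Algebra.Etale R C] [CommRing D] (φ : C →+* D)
    (h : Function.Injective (φ.comp (algebraMap R C))) : Function.Injective φ := by
  rw [injective_iff_map_eq_zero]
  intro c hc
  by_contra hne
  obtain ⟨r, hr, d, hd⟩ :=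
    (isAlgebraic_of_etale R C c).exists_nonzero_dvd (mem_nonZeroDivisors_of_ne_zero hne)
  have h1 : φ (algebraMap R C r) = 0 := by rw [hd, map_mul, hc, zero_mul]
  exact hr (h (by rw [RingHom.comp_apply, h1, map_zero]))

variable {O : Type u} [CommRing O] [IsDomain O] [IsIntegrallyClosed O] {σ : Type}
  {R : Type u} [CommRing R] [IsDomain R] [Algebra (MvPolynomial σ O) R]

/-- The structure map is injective. -/
theorem algebraMap_injective (hL : Hensel.Lazard.Laz (MvPolynomial σ O) R) :
    Function.Injective (algebraMap (MvPolynomial σ O) R) := by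
  have h1 : Module.Flat (MvPolynomial σ O) R := hL.flat
  have : Module.IsTorsionFree (MvPolynomial σ O) R := Module.Flat.isTorsionFree
  exact FaithfulSMul.algebraMap_injective _ R

/-- Every finite subset of an ind-étale domain `R` over `O[X_i]` is contained in (the image of) a
normal domain étale over `O₁[X_i]`, `O₁` a finitely generated normal subring of `O`. -/
theorem exists_approx_domain (hL : Hensel.Lazard.Laz (MvPolynomial σ O) R) (F : Finset R) :
    ∃ (O₁ : Subring O) (_ : ∃ T₁ : Finset O, Subring.closure (T₁ : Set O) = O₁)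
      (_ : IsNoetherianRing O₁) (_ : IsIntegrallyClosed O₁)
      (E : Type u) (_ : CommRing E) (_ : IsDomain E) (_ : IsIntegrallyClosed E)
      (_ : Algebra (MvPolynomial σ O₁) E)
      (_ : Algebra.Etale (MvPolynomial σ O₁) E) (χ : E →+* R), Function.Injective χ ∧
      (F : Set R) ⊆ Set.range χ ∧ χ.comp (algebraMap (MvPolynomial σ O₁) E) =
        (algebraMap (MvPolynomial σ O) R).comp (MvPolynomial.map O₁.subtype) := by
  classical
  let M : Subalgebra ℤ R := Algebra.adjoin ℤ (F : Set R)
  have hM : Algebra.FiniteType ℤ M := (Subalgebra.fg_iff_finiteType M).mp ⟨F, rfl⟩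
  obtain ⟨O₁, h1, h2, h3, E, _, _, _, a, χ, ha, hχ⟩ :=
    Approx.exists_approx hL M M.val.toRingHom
  have hP : IsIntegrallyClosed (MvPolynomial σ O₁) :=
    Desc.NormalSmooth.isIntegrallyClosed_mvPolynomial σ
  have hker : (RingHom.ker χ).IsPrime := RingHom.ker_isPrime χ
  obtain ⟨e, he, heker, hdom, hic⟩ :=
    Etcore.NormalEtale.exists_idempotent_notMem (MvPolynomial σ O₁) E (RingHom.ker χ)
  have hχe : χ e = 1 := by
    have h4 : IsIdempotentElem (χ e) := he.map χ
    rcases IsIdempotentElem.iff_eq_zero_or_one.mp h4 with h | h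
    · exact absurd h heker
    · exact h
  let χ' : Localization.Away e →+* R := IsLocalization.Away.lift e (g := χ)
    (by rw [hχe]; exact isUnit_one)
  have hχ' : ∀ x, χ' (algebraMap E _ x) = χ x := fun x => IsLocalization.Away.lift_eq e _ x
  have : Algebra.Etale (MvPolynomial σ O₁) (Localization.Away e) :=
    Algebra.Etale.comp (MvPolynomial σ O₁) E (Localization.Away e)
  have h5 : χ'.comp (algebraMap (MvPolynomial σ O₁) (Localization.Away e)) =
      (algebraMap (MvPolynomial σ O) R).comp (MvPolynomial.map O₁.subtype) := by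
    rw [← hχ]
    refine RingHom.ext fun x => ?_
    rw [RingHom.comp_apply, RingHom.comp_apply, IsScalarTower.algebraMap_apply
      (MvPolynomial σ O₁) E (Localization.Away e), hχ']
  refine ⟨O₁, h1, h2, h3, Localization.Away e, inferInstance, hdom, hic, inferInstance, this, χ',
    ?_, ?_, h5⟩
  · refine injective_of_etale (R := MvPolynomial σ O₁) χ' ?_
    rw [h5]
    exact (algebraMap_injective hL).comp (MvPolynomial.map_injective _ Subtype.val_injective)
  · intro x hx
    have hxM : x ∈ M := Algebra.subset_adjoin hx
    refine ⟨algebraMap E _ (a ⟨x, hxM⟩), ?_⟩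
    rw [hχ']
    exact congr($ha ⟨x, hxM⟩)

end Groth.Agent.Pi1.H393.ApproxDom
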