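import Groth.Agent.Pi1A.FEtAffine
import Mathlib.RingTheory.Localization.BaseChange

/-!
# Extension of finite étale covers of a basic open, in terms of algebras
-/

set_option autoImplicit false

open CategoryTheory CategoryTheory.Limits AlgebraicGeometry TensorProduct

universe u

namespace Groth.Agent.Pi1.H393.Conv

open Pi1A.FEtAffine

variable {X U T : Scheme.{u}}

/-- Restriction to a fibre product does not depend on the choice of the fibre product. -/
theorem extOver_iff_of_isPullback {P : Scheme.{u}} {j : U ⟶ X} {g : T ⟶ X} {p : P ⟶ U} {q : P ⟶ T}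
    (h : IsPullback p q j g) (V : FEt.Cat U) (Y : FEt.Cat T) :
    Nonempty ((FEt.restrict (pullback.snd j g)).obj Y ≅ (FEt.restrict (pullback.fst j g)).obj V) ↔
      Nonempty ((FEt.restrict q).obj Y ≅ (FEt.restrict p).obj V) := by
  constructor
  · rintro ⟨e⟩
    exact ⟨(restrictCongr h.isoPullback_hom_snd.symm).app Y ≪≫
      ((restrictComp h.isoPullback.hom (pullback.snd j g)).app Y) ≪≫
      (FEt.restrict h.isoPullback.hom).mapIso e ≪≫
      ((restrictComp h.isoPullback.hom (pullback.fst j g)).symm.app V) ≪≫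
      (restrictCongr h.isoPullback_hom_fst).app V⟩
  · rintro ⟨e⟩
    exact ⟨(restrictCongr h.isoPullback_inv_snd.symm).app Y ≪≫
      ((restrictComp h.isoPullback.inv q).app Y) ≪≫
      (FEt.restrict h.isoPullback.inv).mapIso e ≪≫
      ((restrictComp h.isoPullback.inv p).symm.app V) ≪≫
      (restrictCongr h.isoPullback_inv_fst).app V⟩

section Alg

variable {A : Type u} [CommRing A] (At : Type u) [CommRing At] [Algebra A At]
  (C : Type u) [CommRing C] [Algebra At C] [Module.Finite At C] [Algebra.Etale At C]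

/-- The cover of an open `U` of `Spec A`, identified with `Spec At`, given by a finite étale
`At`-algebra. -/
noncomputable def coverOf {U : Scheme.{u}} (e : U ⟶ Spec (CommRingCat.of At)) : FEt.Cat U :=
  (FEt.restrict e).obj (ofAlgebra At C)

variable {At C}

/-- The conversion lemma: extension of the cover given by `C` over `Spec B` in terms of algebras. -/
theorem extOver_iff {U : Scheme.{u}} {j : U ⟶ Spec (CommRingCat.of A)}
    (e : U ≅ Spec (CommRingCat.of At)) (he : e.hom ≫ specMap A At = j)
    {B Bt : Type u} [CommRing B] [CommRing Bt] [Algebra A B] [Algebra B Bt] [Algebra At Bt]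
    [Algebra A Bt] [IsScalarTower A At Bt] [IsScalarTower A B Bt]
    (h : IsPullback (specMap At Bt) (specMap B Bt) (specMap A At) (specMap A B)) :
    (∃ Y : FEt.Cat (Spec (CommRingCat.of B)), Nonempty
      ((FEt.restrict (pullback.snd j (specMap A B))).obj Y ≅
        (FEt.restrict (pullback.fst j (specMap A B))).obj (coverOf At C e.hom))) ↔
    ∃ (E : Type u) (_ : CommRing E) (_ : Algebra B E) (_ : Module.Finite B E)
      (_ : Algebra.Etale B E), Nonempty (Bt ⊗[B] E ≃ₐ[Bt] Bt ⊗[At] C) := by
  have hp : IsPullback (specMap At Bt ≫ e.inv) (specMap B Bt) j (specMap A B) := by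
    refine IsPullback.of_iso h (Iso.refl _) e.symm (Iso.refl _) (Iso.refl _) ?_ ?_ ?_ ?_
    · simp
    · simp
    · simp [← he]
    · simp
  have h1 : ∀ Y : FEt.Cat (Spec (CommRingCat.of B)), Nonempty
      ((FEt.restrict (pullback.snd j (specMap A B))).obj Y ≅
        (FEt.restrict (pullback.fst j (specMap A B))).obj (coverOf At C e.hom)) ↔
      Nonempty ((FEt.restrict (specMap B Bt)).obj Y ≅ ofAlgebra Bt (Bt ⊗[At] C)) := by
    intro Y
    rw [extOver_iff_of_isPullback hp]
    let i : (FEt.restrict (specMap At Bt ≫ e.inv)).obj (coverOf At C e.hom) ≅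
        ofAlgebra Bt (Bt ⊗[At] C) :=
      (restrictComp (specMap At Bt ≫ e.inv) e.hom).symm.app (ofAlgebra At C) ≪≫
        (restrictCongr (by rw [Category.assoc, e.inv_hom_id, Category.comp_id])).app _ ≪≫
        restrictOfAlgebraIso At Bt C
    exact ⟨fun ⟨a⟩ => ⟨a ≪≫ i⟩, fun ⟨a⟩ => ⟨a ≪≫ i.symm⟩⟩
  constructor
  · rintro ⟨Y, hY⟩
    obtain ⟨E, _, _, _, _, ⟨a⟩⟩ := exists_iso_ofAlgebra Y
    obtain ⟨b⟩ := (h1 Y).mp hY
    refine ⟨E, inferInstance, inferInstance, inferInstance, inferInstance, ?_⟩
    rw [← nonempty_iso_iff_nonempty_algEquiv]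
    exact ⟨b.symm ≪≫ (FEt.restrict (specMap B Bt)).mapIso a ≪≫ restrictOfAlgebraIso B Bt E⟩
  · rintro ⟨E, _, _, _, _, ⟨a⟩⟩
    refine ⟨ofAlgebra B E, (h1 _).mpr ?_⟩
    obtain ⟨b⟩ := nonempty_iso_iff_nonempty_algEquiv.mpr ⟨a⟩
    exact ⟨restrictOfAlgebraIso B Bt E ≪≫ b.symm⟩

/-- The pullback square of localizations. -/
theorem isPullback_away (t : A) [IsLocalization.Away t At]
    {B Bt : Type u} [CommRing B] [CommRing Bt] [Algebra A B] [Algebra B Bt] [Algebra At Bt]
    [Algebra A Bt] [IsScalarTower A At Bt] [IsScalarTower A B Bt]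
    [h : IsLocalization.Away (algebraMap A B t) Bt] :
    IsPullback (specMap At Bt) (specMap B Bt) (specMap A At) (specMap A B) := by
  have h1 : IsLocalization (Algebra.algebraMapSubmonoid B (Submonoid.powers t)) Bt := by
    have : Algebra.algebraMapSubmonoid B (Submonoid.powers t) =
        Submonoid.powers (algebraMap A B t) := by
      rw [Algebra.algebraMapSubmonoid, Submonoid.map_powers]
    rw [this]
    exact h
  have h2 : Algebra.IsPushout A B At Bt := Algebra.isPushout_of_isLocalization (Submonoid.powers t) At B Bt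
  exact isPullback_SpecMap_of_isPushout _ _ _ _ (CommRingCat.isPushout_of_isPushout A B At Bt).flip

end Alg

end Groth.Agent.Pi1.H393.Conv
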