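import Groth.Agent.Pi1.H395.Coord
import Groth.Agent.Models.DVRGeneric
import Mathlib.RingTheory.QuasiFinite.Basic
import Mathlib.Algebra.MvPolynomial.Division
import Mathlib.RingTheory.Flat.TorsionFree
import Mathlib.RingTheory.DiscreteValuationRing.TFAE

/-!
# The coordinate primes of an étale algebra over `O₁[X_σ]` under an ind-étale algebra over `O[X_σ]`
-/

set_option autoImplicit false

open MvPolynomial TensorProduct IsLocalRing

universe u

namespace Groth.Agent.Pi1.H393.CoordMin

open Pi1.H395.Coord Pi1.H404.AlgCore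

/-- The contraction of a coordinate ideal along a flat map. -/
theorem mem_span_X_of_mem_span {O : Type*} [CommRing O] [IsDomain O] {σ : Type*} {R : Type*}
    [CommRing R] [Algebra (MvPolynomial σ O) R] [Module.Flat (MvPolynomial σ O) R] (j : σ)
    (hne : Ideal.span {algebraMap (MvPolynomial σ O) R (X j)} ≠ ⊤) (p : MvPolynomial σ O)
    (hp : algebraMap (MvPolynomial σ O) R p ∈
      Ideal.span {algebraMap (MvPolynomial σ O) R (X j)}) :
    p ∈ Ideal.span {(X j : MvPolynomial σ O)} := by
  by_contra hcon
  let I : Ideal (MvPolynomial σ O) := Ideal.span {X j}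
  have hI : I.IsPrime := (Ideal.span_singleton_prime (X_ne_zero j)).mpr X_prime
  let P' := MvPolynomial σ O ⧸ I
  have hdom : IsDomain P' := Ideal.Quotient.isDomain I
  have hflat : Module.Flat P' (P' ⊗[MvPolynomial σ O] R) := Module.Flat.baseChange _ _ _
  have htf : Module.IsTorsionFree P' (P' ⊗[MvPolynomial σ O] R) := Module.Flat.isTorsionFree
  have hp' : (Ideal.Quotient.mk I p) ≠ 0 := fun h => hcon (Ideal.Quotient.eq_zero_iff_mem.mp h)
  obtain ⟨r, hr⟩ := Ideal.mem_span_singleton'.mp hp
  have h1 : (Ideal.Quotient.mk I p) • ((1 : P') ⊗ₜ[MvPolynomial σ O] (1 : R)) = 0 := by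
    have h2 : (Ideal.Quotient.mk I p) • ((1 : P') ⊗ₜ[MvPolynomial σ O] (1 : R)) =
        p • ((1 : P') ⊗ₜ[MvPolynomial σ O] (1 : R)) := by
      rw [← algebraMap_smul P' p]
      rfl
    rw [h2, ← TensorProduct.tmul_smul, Algebra.smul_def, mul_one, ← hr, mul_comm,
      ← Algebra.smul_def, TensorProduct.tmul_smul, TensorProduct.smul_tmul']
    have h3 : (X j : MvPolynomial σ O) • (1 : P') = 0 := by
      rw [← Algebra.algebraMap_eq_smul_one]
      exact Ideal.Quotient.eq_zero_iff_mem.mpr (Ideal.mem_span_singleton_self _)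
    rw [h3, TensorProduct.zero_tmul]
  have h4 : (1 : P') ⊗ₜ[MvPolynomial σ O] (1 : R) = 0 := (smul_eq_zero.mp h1).resolve_left hp'
  have h5 : (Algebra.TensorProduct.includeRight : R →ₐ[MvPolynomial σ O]
      P' ⊗[MvPolynomial σ O] R) 1 = 0 := h4
  have h6 := mem_map_ker_of_includeRight (P' := P') Ideal.Quotient.mk_surjective (1 : R) h5
  have h7 : RingHom.ker (algebraMap (MvPolynomial σ O) P') = I := Ideal.mk_ker
  rw [h7, Ideal.map_span, Set.image_singleton] at h6
  exact hne ((Ideal.eq_top_iff_one _).mpr h6)

/-- Divisibility by a coordinate can be checked after enlarging the coefficients. -/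
theorem mem_span_X_of_map {O : Type*} [CommRing O] (O₁ : Subring O) {σ : Type*} (j : σ)
    (p : MvPolynomial σ O₁) (hp : map O₁.subtype p ∈ Ideal.span {(X j : MvPolynomial σ O)}) :
    p ∈ Ideal.span {(X j : MvPolynomial σ O₁)} := by
  classical
  rw [Ideal.mem_span_singleton, X_dvd_iff] at hp ⊢
  have h1 : map O₁.subtype (kill O₁ j p) = kill O j (map O₁.subtype p) := by
    have h2 : (map O₁.subtype : MvPolynomial σ O₁ →+* _).comp (kill O₁ j).toRingHom =
        (kill O j).toRingHom.comp (map O₁.subtype) := by
      refine MvPolynomial.ringHom_ext (fun a => ?_) (fun i => ?_)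
      · simp [kill, MvPolynomial.algebraMap_eq]
      · by_cases hi : i = j
        · subst hi
          simp [kill]
        · simp [kill, hi]
    exact congr($h2 p)
  rw [hp] at h1
  exact (map_eq_zero_iff _ (map_injective _ Subtype.val_injective)).mp h1

variable {O : Type u} [CommRing O] [IsDomain O] (O₁ : Subring O) {σ : Type}
  {E R : Type u} [CommRing E] [CommRing R] [Algebra (MvPolynomial σ O₁) E]
  [Algebra (MvPolynomial σ O) R] [Algebra E R]

variable (hc : (algebraMap E R).comp (algebraMap (MvPolynomial σ O₁) E) =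
  (algebraMap (MvPolynomial σ O) R).comp (MvPolynomial.map O₁.subtype))

include hc in
omit [IsDomain O] in
theorem algebraMap_coord (j : σ) : algebraMap E R (algebraMap (MvPolynomial σ O₁) E (X j)) =
    algebraMap (MvPolynomial σ O) R (X j) := by
  have h := congr($hc (X j))
  rwa [RingHom.comp_apply, RingHom.comp_apply, map_X] at h

variable [Module.Flat (MvPolynomial σ O) R] [Algebra.Etale (MvPolynomial σ O₁) E]

include hc in
/-- The contraction of `(X_j)` is a minimal prime over the coordinate. -/
theorem comap_mem_minimalPrimes (j : σ)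
    [hp : (Ideal.span {algebraMap (MvPolynomial σ O) R (X j)}).IsPrime] :
    (Ideal.span {algebraMap (MvPolynomial σ O) R (X j)}).comap (algebraMap E R) ∈
      (Ideal.span {algebraMap (MvPolynomial σ O₁) E (X j)}).minimalPrimes := by
  refine ⟨⟨Ideal.comap_isPrime _ _, (Ideal.span_singleton_le_iff_mem _).mpr ?_⟩, ?_⟩
  · rw [Ideal.mem_comap, algebraMap_coord O₁ hc]
    exact Ideal.mem_span_singleton_self _
  · rintro Q ⟨hQ, hXQ⟩ hle
    have h1 : Q = (Ideal.span {algebraMap (MvPolynomial σ O) R (X j)}).comap (algebraMap E R) := by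
      have hcp : ((Ideal.span {algebraMap (MvPolynomial σ O) R (X j)}).comap
        (algebraMap E R)).IsPrime := Ideal.comap_isPrime _ _
      refine Algebra.QuasiFinite.eq_of_le_of_under_eq (R := MvPolynomial σ O₁) _ _ hle ?_
      refine le_antisymm (Ideal.comap_mono hle) fun p hp => ?_
      have h2 : algebraMap E R (algebraMap (MvPolynomial σ O₁) E p) ∈
        Ideal.span {algebraMap (MvPolynomial σ O) R (X j)} := hp
      have h3 := congr($hc p)
      rw [RingHom.comp_apply, RingHom.comp_apply] at h3
      rw [h3] at h2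
      have h4 := mem_span_X_of_map O₁ j p
        (mem_span_X_of_mem_span j (Ideal.IsPrime.ne_top ‹_›) _ h2)
      obtain ⟨s, rfl⟩ := Ideal.mem_span_singleton'.mp h4
      change algebraMap (MvPolynomial σ O₁) E (s * X j) ∈ Q
      rw [map_mul]
      exact Q.mul_mem_left _ (hXQ (Ideal.mem_span_singleton_self _))
    exact h1.ge

/-- The local ring of a Noetherian normal étale algebra over `O₁[X_σ]` at a minimal prime over a
coordinate: its fraction field is the localization away from any product of coordinates among which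
exactly this one vanishes. -/
theorem isLocalization_away_fractionRing [IsDomain O₁] [IsIntegrallyClosed O₁] [IsNoetherianRing O₁]
    [Finite σ] [IsDomain E] (j : σ) (ξ : Ideal E) [ξ.IsPrime]
    (hξ : ξ ∈ (Ideal.span {algebraMap (MvPolynomial σ O₁) E (X j)}).minimalPrimes)
    (N : Type u) [CommRing N] [Algebra E N] [IsLocalization.AtPrime N ξ]
    (K : Type u) [Field K] [Algebra E K] [IsFractionRing E K] [Algebra N K] [IsScalarTower E N K]
    (s : E) (hs : s ∉ ξ) :
    IsLocalization.Away (algebraMap E N (algebraMap (MvPolynomial σ O₁) E (X j) * s)) K := by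
  have hNE : IsNoetherianRing E := Algebra.FiniteType.isNoetherianRing (MvPolynomial σ O₁) E
  have hN : IsNoetherianRing N := IsLocalization.isNoetherianRing ξ.primeCompl N hNE
  have hNloc : IsLocalRing N := IsLocalization.AtPrime.isLocalRing N ξ
  have hNdom : IsDomain N := IsLocalization.isDomain_of_le_nonZeroDivisors N
    ξ.primeCompl_le_nonZeroDivisors
  have hfrac : IsFractionRing N K := IsFractionRing.isFractionRing_of_isDomain_of_isLocalization
    ξ.primeCompl N K
  have hX : algebraMap (MvPolynomial σ O₁) E (X j) ∈ ξ := hξ.1.2 (Ideal.mem_span_singleton_self _)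
  have hcp := eq_coordPrime (O := O₁) j ξ hξ le_rfl
  have hX0 : algebraMap (MvPolynomial σ O₁) E (X j) ≠ 0 :=
    nonZeroDivisors.ne_zero (algebraMap_X_mem_nonZeroDivisors (O := O₁) (B := E) j)
  have hEN : Function.Injective (algebraMap E N) :=
    IsLocalization.injective N ξ.primeCompl_le_nonZeroDivisors
  set x : N := algebraMap E N (algebraMap (MvPolynomial σ O₁) E (X j)) with hx
  have hx0 : x ≠ 0 := fun h => hX0 (hEN (by rw [← hx, h, map_zero]))
  have hmax : maximalIdeal N = Ideal.span {x} := by
    apply le_antisymm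
    · rw [← IsLocalization.AtPrime.map_eq_maximalIdeal ξ N, Ideal.map_le_iff_le_comap]
      intro a ha
      rw [hcp] at ha
      obtain ⟨r, hr, hra⟩ := ha
      obtain ⟨b, hb⟩ := Ideal.mem_span_singleton'.mp hra
      have hu : IsUnit (algebraMap E N r) := IsLocalization.map_units N (⟨r, hr⟩ : ξ.primeCompl)
      obtain ⟨v, hv⟩ := hu
      rw [Ideal.mem_comap, Ideal.mem_span_singleton']
      refine ⟨(v⁻¹ : Nˣ) * algebraMap E N b, ?_⟩
      rw [mul_assoc, hx, ← map_mul, hb, map_mul, ← hv, ← mul_assoc, Units.inv_mul, one_mul]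
    · rw [Ideal.span_singleton_le_iff_mem, hx, ← IsLocalization.AtPrime.map_eq_maximalIdeal ξ N]
      exact Ideal.mem_map_of_mem _ hX
  have hnf : ¬ IsField N := by
    rw [IsLocalRing.isField_iff_maximalIdeal_eq, hmax, Ideal.span_singleton_eq_bot]
    exact hx0
  have hprin : (maximalIdeal N).IsPrincipal := ⟨x, hmax⟩
  have hdvr : IsDiscreteValuationRing N :=
    ((IsDiscreteValuationRing.TFAE N hnf).out 0 4).mpr hprin
  have hirr : Irreducible x := (IsDiscreteValuationRing.irreducible_iff_uniformizer x).mpr hmax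
  have hu : IsUnit (algebraMap E N s) := IsLocalization.map_units N (⟨s, hs⟩ : ξ.primeCompl)
  have hir2 : Irreducible (algebraMap E N (algebraMap (MvPolynomial σ O₁) E (X j) * s)) := by
    rw [map_mul]
    exact (irreducible_mul_isUnit hu).mpr hirr
  exact Models.DVRGeneric.isLocalization_away N _ hir2 K

end Groth.Agent.Pi1.H393.CoordMin
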