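import Mathlib.RingTheory.Localization.Basic
import Mathlib.RingTheory.Localization.FractionRing

/-!
# Localizations of a domain mapping to a field
-/

set_option autoImplicit false

namespace Groth.Agent.Pi1.H393.LocField

variable {E K : Type*} [CommRing E] [Field K] (χ : E →+* K) (hχ : Function.Injective χ)
  (M : Submonoid E) (hM : (0 : E) ∉ M) (N : Type*) [CommRing N] [Algebra E N] [IsLocalization M N]

include hχ hM in
theorem isUnit_of_mem (m : M) : IsUnit (χ m) := by
  rw [isUnit_iff_ne_zero, Ne, map_eq_zero_iff χ hχ]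
  exact fun h => hM (h ▸ m.2)

/-- The map from a localization of `E` to the field `K`. -/
noncomputable def jloc : N →+* K := IsLocalization.lift (M := M) (isUnit_of_mem χ hχ M hM)

@[simp]
theorem jloc_algebraMap (x : E) : jloc χ hχ M hM N (algebraMap E N x) = χ x :=
  IsLocalization.lift_eq _ _

theorem jloc_comp : (jloc χ hχ M hM N).comp (algebraMap E N) = χ :=
  RingHom.ext fun x => jloc_algebraMap χ hχ M hM N x

theorem jloc_injective : Function.Injective (jloc χ hχ M hM N) := by
  rw [jloc, IsLocalization.lift_injective_iff]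
  intro x y
  constructor
  · intro h
    obtain ⟨c, hc⟩ := (IsLocalization.eq_iff_exists M N).mp h
    have h1 : χ (c : E) * χ x = χ (c : E) * χ y := by rw [← map_mul, hc, map_mul]
    exact mul_left_cancel₀ (isUnit_of_mem χ hχ M hM c).ne_zero h1
  · intro h
    rw [hχ h]

/-- Uniqueness. -/
theorem eq_jloc (φ : N →+* K) (h : φ.comp (algebraMap E N) = χ) : φ = jloc χ hχ M hM N := by
  refine IsLocalization.ringHom_ext M ?_
  rw [h, jloc_comp]

theorem mem_range_jloc {x : K} {r m : E} (hm : m ∈ M) (h : x * χ m = χ r) :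
    x ∈ Set.range (jloc χ hχ M hM N) := by
  refine ⟨IsLocalization.mk' N r ⟨m, hm⟩, ?_⟩
  have h1 : χ m ≠ 0 := (isUnit_of_mem χ hχ M hM ⟨m, hm⟩).ne_zero
  apply mul_right_cancel₀ h1
  have h2 : IsLocalization.mk' N r (⟨m, hm⟩ : M) * algebraMap E N m = algebraMap E N r :=
    IsLocalization.mk'_spec N r (⟨m, hm⟩ : M)
  rw [h, ← jloc_algebraMap χ hχ M hM N m, ← map_mul, h2, jloc_algebraMap]

end Groth.Agent.Pi1.H393.LocField
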