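import Groth.Agent.Pi1.H393.ApproxDom
import Groth.Agent.Pi1.H393.AlgDesc
import Groth.Agent.Pi1.H393.LocField
import Groth.Agent.Pi1A.FEtModel

/-!
# The relative purity problem over a normal base comes from a Noetherian normal base

`O` a normal domain, `R` a domain ind-étale over `O[X_σ]`, `t_i` the images of coordinates; `C`
finite étale over `R[1/∏ t_i]`, unramified at the localizations `B_i` of `R` at the primes `(t_i)`.
These data come from a normal domain `E` étale over `O₁[X_σ]`, `O₁` a Noetherian normal subring.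
-/

set_option autoImplicit false

open MvPolynomial TensorProduct

universe u

namespace Groth.Agent.Pi1.H393.FiniteLevel

open LocField

/-- Data at a finite level. -/
theorem exists_finite_level
    {O R : Type u} [CommRing O] [IsDomain O] [IsIntegrallyClosed O]
    [CommRing R] [IsDomain R] {σ : Type} [Algebra (MvPolynomial σ O) R]
    (hL : Hensel.Lazard.Laz (MvPolynomial σ O) R)
    {ι : Type} [Fintype ι] (e : ι → σ) (t : ι → R)
    (ht : ∀ i, algebraMap (MvPolynomial σ O) R (X (e i)) = t i)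
    (Rt : Type u) [CommRing Rt] [Algebra R Rt] [IsLocalization.Away (∏ i, t i) Rt]
    (K : Type u) [Field K] [Algebra R K] [Algebra Rt K] [IsScalarTower R Rt K] [IsFractionRing R K]
    (C : Type u) [CommRing C] [Algebra Rt C] [Module.Finite Rt C] [Algebra.Etale Rt C]
    (B : ι → Type u) [∀ i, CommRing (B i)] [∀ i, Algebra R (B i)] [∀ i, Algebra (B i) K]
    [∀ i, IsScalarTower R (B i) K] [∀ i, (Ideal.span {t i}).IsPrime]
    [∀ i, IsLocalization.AtPrime (B i) (Ideal.span {t i})]
    (D : ι → Type u) [∀ i, CommRing (D i)] [∀ i, Algebra (B i) (D i)]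
    [∀ i, Module.Finite (B i) (D i)] [∀ i, Algebra.Etale (B i) (D i)]
    (φ : ∀ i, K ⊗[B i] D i ≃ₐ[K] K ⊗[Rt] C) :
    ∃ (O₁ : Subring O) (_ : IsNoetherianRing O₁) (_ : IsIntegrallyClosed O₁)
      (E : Type u) (_ : CommRing E) (_ : IsDomain E) (_ : IsIntegrallyClosed E)
      (_ : Algebra (MvPolynomial σ O₁) E) (_ : Algebra.Etale (MvPolynomial σ O₁) E)
      (_ : Algebra E R) (_ : Function.Injective (algebraMap E R))
      (_ : (algebraMap E R).comp (algebraMap (MvPolynomial σ O₁) E) =
        (algebraMap (MvPolynomial σ O) R).comp (MvPolynomial.map O₁.subtype))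
      (Et : Type u) (_ : CommRing Et) (_ : Algebra E Et)
      (_ : IsLocalization.Away (∏ i, algebraMap (MvPolynomial σ O₁) E (X (e i))) Et)
      (C₁ : Type u) (_ : CommRing C₁) (_ : Algebra Et C₁) (_ : Module.Finite Et C₁)
      (_ : Algebra.Etale Et C₁),
      (∃ (_ : Algebra Et Rt) (_ : Algebra E Rt) (_ : IsScalarTower E Et Rt)
        (_ : IsScalarTower E R Rt), Nonempty (Rt ⊗[Et] C₁ ≃ₐ[Rt] C)) ∧
      ∀ i, ∃ (_ : ((Ideal.span {t i}).comap (algebraMap E R)).IsPrime)
        (D₁ : Type u) (_ : CommRing D₁)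
        (_ : Algebra (Localization.AtPrime ((Ideal.span {t i}).comap (algebraMap E R))) D₁)
        (_ : Module.Finite (Localization.AtPrime ((Ideal.span {t i}).comap (algebraMap E R))) D₁)
        (_ : Algebra.Etale (Localization.AtPrime ((Ideal.span {t i}).comap (algebraMap E R))) D₁)
        (_ : Algebra Et (FractionRing E)) (_ : IsScalarTower E Et (FractionRing E))
        (_ : Algebra (Localization.AtPrime ((Ideal.span {t i}).comap (algebraMap E R)))
          (FractionRing E))
        (_ : IsScalarTower E (Localization.AtPrime ((Ideal.span {t i}).comap (algebraMap E R)))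
          (FractionRing E)),
        Nonempty (FractionRing E ⊗[Localization.AtPrime
          ((Ideal.span {t i}).comap (algebraMap E R))] D₁ ≃ₐ[FractionRing E]
            FractionRing E ⊗[Et] C₁) := by
  classical
  have hPR := ApproxDom.algebraMap_injective hL
  have ht0 : ∀ i, t i ≠ 0 := by
    intro i h
    rw [← ht, map_eq_zero_iff _ hPR] at h
    exact X_ne_zero _ h
  have hprod : (∏ i, t i) ≠ 0 := Finset.prod_ne_zero_iff.mpr fun i _ => ht0 i
  have hRK : Function.Injective (algebraMap R K) := IsFractionRing.injective R K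
  -- models of the algebras
  obtain ⟨A₁, C', _, _, hA₁, _, _, ⟨e₁⟩⟩ := Pi1A.FEtModel.exists_subalgebra_fg ℤ Rt C
  have hA₁' : Algebra.FiniteType ℤ A₁ := (Subalgebra.fg_iff_finiteType A₁).mp hA₁
  obtain ⟨T₁, hT₁⟩ := hA₁'.out
  choose A₂ D' i1 i2 hA₂ i3 i4 e₂ using fun i => Pi1A.FEtModel.exists_subalgebra_fg ℤ (B i) (D i)
  have hA₂' : ∀ i, Algebra.FiniteType ℤ (A₂ i) := fun i =>
    (Subalgebra.fg_iff_finiteType (A₂ i)).mp (hA₂ i)
  choose T₂ hT₂ using fun i => (hA₂' i).out
  -- the isomorphisms over `K`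
  let φ' : ∀ i, K ⊗[A₂ i] D' i ≃ₐ[K] K ⊗[A₁] C' := fun i =>
    (Algebra.TensorProduct.cancelBaseChange (A₂ i) (B i) K K (D' i)).symm.trans
      ((Algebra.TensorProduct.congr (AlgEquiv.refl : K ≃ₐ[K] K) (e₂ i).some.symm).trans
        ((φ i).trans ((Algebra.TensorProduct.congr (AlgEquiv.refl : K ≃ₐ[K] K) e₁).trans
          (Algebra.TensorProduct.cancelBaseChange A₁ Rt K K C'))))
  have hex := fun i => AlgDesc.exists_equiv.{u} (φ' i)
  choose Λ hΛ using hex
  -- numerators and denominators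
  have hs₁ : ∀ g : A₁, ∃ (n : ℕ) (r : R), (g : Rt) * algebraMap R Rt (∏ i, t i) ^ n =
      algebraMap R Rt r := fun g => IsLocalization.Away.surj (∏ i, t i) (g : Rt)
  choose n₁ r₁ hr₁ using hs₁
  have hs₂ : ∀ i (g : A₂ i), ∃ (r s : R), s ∉ Ideal.span {t i} ∧ (g : B i) * algebraMap R (B i) s =
      algebraMap R (B i) r := by
    intro i g
    obtain ⟨⟨r, s⟩, h⟩ := IsLocalization.surj (Ideal.span {t i}).primeCompl (g : B i)
    exact ⟨r, s, s.2, h⟩
  choose r₂ s₂ hs₂ hr₂ using hs₂
  have hs₃ : ∀ x : K, ∃ (r s : R), s ≠ 0 ∧ x * algebraMap R K s = algebraMap R K r := by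
    intro x
    obtain ⟨⟨r, s⟩, h⟩ := IsLocalization.surj (nonZeroDivisors R) x
    exact ⟨r, s, nonZeroDivisors.ne_zero s.2, h⟩
  choose r₃ s₃ hs₃ hr₃ using hs₃
  let F : Finset R := T₁.image r₁ ∪ Finset.univ.biUnion fun i =>
    ((T₂ i).image (r₂ i) ∪ (T₂ i).image (s₂ i)) ∪ ((Λ i).image r₃ ∪ (Λ i).image s₃)
  obtain ⟨O₁, -, h1, h2, E, _, _, _, _, _, χ, hχ, hF, hχP⟩ := ApproxDom.exists_approx_domain hL F
  have hF₁ : ∀ g ∈ T₁, r₁ g ∈ Set.range χ := fun g hg => hF (by
    simp only [F, Finset.coe_union, Set.mem_union]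
    exact Or.inl (Finset.mem_coe.mpr (Finset.mem_image_of_mem _ hg)))
  have hF' : ∀ i, ∀ x ∈ ((T₂ i).image (r₂ i) ∪ (T₂ i).image (s₂ i)) ∪
      ((Λ i).image r₃ ∪ (Λ i).image s₃), x ∈ Set.range χ := fun i x hx => hF (by
    rw [Finset.mem_coe]
    exact Finset.mem_union_right _ (Finset.mem_biUnion.mpr ⟨i, Finset.mem_univ i, hx⟩))
  have hF₂r : ∀ i, ∀ g ∈ T₂ i, r₂ i g ∈ Set.range χ := fun i g hg => hF' i _
    (Finset.mem_union_left _ (Finset.mem_union_left _ (Finset.mem_image_of_mem _ hg)))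
  have hF₂s : ∀ i, ∀ g ∈ T₂ i, s₂ i g ∈ Set.range χ := fun i g hg => hF' i _
    (Finset.mem_union_left _ (Finset.mem_union_right _ (Finset.mem_image_of_mem _ hg)))
  have hF₃r : ∀ i, ∀ g ∈ Λ i, r₃ g ∈ Set.range χ := fun i g hg => hF' i _
    (Finset.mem_union_right _ (Finset.mem_union_left _ (Finset.mem_image_of_mem _ hg)))
  have hF₃s : ∀ i, ∀ g ∈ Λ i, s₃ g ∈ Set.range χ := fun i g hg => hF' i _
    (Finset.mem_union_right _ (Finset.mem_union_right _ (Finset.mem_image_of_mem _ hg)))
  let t' : ι → E := fun i => algebraMap (MvPolynomial σ O₁) E (X (e i))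
  have ht' : ∀ i, χ (t' i) = t i := by
    intro i
    have h3 := congr($hχP (X (e i)))
    rw [RingHom.comp_apply, RingHom.comp_apply, MvPolynomial.map_X, ht] at h3
    exact h3
  have hprod' : χ (∏ i, t' i) = ∏ i, t i := by rw [map_prod]; exact Finset.prod_congr rfl fun i _ => ht' i
  have hprod0 : (∏ i, t' i) ≠ 0 := fun h => hprod (by rw [← hprod', h, map_zero])
  let _ : Algebra E R := χ.toAlgebra
  let χK : E →+* K := (algebraMap R K).comp χ
  have hχK : Function.Injective χK := hRK.comp hχ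
  let Et := Localization.Away (∏ i, t' i)
  have h0 : (0 : E) ∉ Submonoid.powers (∏ i, t' i) := by
    rintro ⟨n, hn⟩
    exact pow_ne_zero n hprod0 hn
  have h0' : (0 : E) ∉ nonZeroDivisors E := fun h => (nonZeroDivisors.ne_zero h) rfl
  -- the maps to `K` and to the fraction field
  let jEt : Et →+* K := jloc χK hχK (Submonoid.powers (∏ i, t' i)) h0 Et
  let kF : FractionRing E →+* K := jloc χK hχK (nonZeroDivisors E) h0' (FractionRing E)
  let aFK : Algebra (FractionRing E) K := kF.toAlgebra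
  have hEF : Function.Injective (algebraMap E (FractionRing E)) := IsFractionRing.injective _ _
  let jEF : Et →+* FractionRing E := jloc (algebraMap E (FractionRing E)) hEF
    (Submonoid.powers (∏ i, t' i)) h0 Et
  have hkj : kF.comp jEF = jEt := by
    refine eq_jloc χK hχK _ h0 Et _ ?_
    rw [RingHom.comp_assoc, jloc_comp]
    exact jloc_comp _ _ _ _ _
  -- the algebra `A₁`
  obtain ⟨ρ₁, hρ₁⟩ : ∃ ρ₁ : A₁ →+* Et, jEt.comp ρ₁ = (algebraMap Rt K).comp A₁.val.toRingHom := by
    refine AlgDesc.exists_lift _ jEt (jloc_injective _ _ _ _ _) (T₁ : Set A₁) hT₁ fun g hg => ?_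
    obtain ⟨x, hx⟩ := hF₁ g hg
    refine mem_range_jloc χK hχK _ h0 Et (r := x) (m := (∏ i, t' i) ^ n₁ g) ⟨n₁ g, rfl⟩ ?_
    change algebraMap Rt K (g : Rt) * algebraMap R K (χ _) = algebraMap R K (χ x)
    rw [hx, map_pow, hprod', IsScalarTower.algebraMap_apply R Rt K, ← map_mul, map_pow, hr₁,
      ← IsScalarTower.algebraMap_apply]
  -- the map `Et → Rt`
  have hut : IsUnit (((algebraMap R Rt).comp χ) (∏ i, t' i)) := by
    rw [RingHom.comp_apply, hprod']
    exact IsLocalization.Away.algebraMap_isUnit (∏ i, t i)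
  let lEt : Et →+* Rt := IsLocalization.Away.lift (∏ i, t' i) hut
  have hlEt : ∀ x, lEt (algebraMap E Et x) = algebraMap R Rt (χ x) := fun x =>
    IsLocalization.Away.lift_eq _ hut x
  have hlj : (algebraMap Rt K).comp lEt = jEt := by
    refine eq_jloc χK hχK _ h0 Et _ ?_
    ext x
    rw [RingHom.comp_apply, RingHom.comp_apply, hlEt, ← IsScalarTower.algebraMap_apply]
    rfl
  have hRtK : Function.Injective (algebraMap Rt K) := by
    have h3 : (0 : R) ∉ Submonoid.powers (∏ i, t i) := by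
      rintro ⟨n, hn⟩
      exact pow_ne_zero n hprod hn
    have h4 : algebraMap Rt K = jloc (algebraMap R K) hRK _ h3 Rt :=
      eq_jloc _ hRK _ h3 Rt _ (IsScalarTower.algebraMap_eq R Rt K).symm
    rw [h4]
    exact jloc_injective _ _ _ _ _
  let aA₁Et : Algebra A₁ Et := ρ₁.toAlgebra
  let aEtRt : Algebra Et Rt := lEt.toAlgebra
  have s1 : IsScalarTower A₁ Et Rt := IsScalarTower.of_algebraMap_eq fun x => hRtK (by
    have h5 := congr($hρ₁ x)
    have h6 := congr($hlj (ρ₁ x))
    rw [RingHom.comp_apply] at h5 h6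
    change algebraMap Rt K (x : Rt) = algebraMap Rt K (lEt (ρ₁ x))
    rw [h6, h5]
    rfl)
  let aEF : Algebra Et (FractionRing E) := jEF.toAlgebra
  let aA₁F : Algebra A₁ (FractionRing E) := (jEF.comp ρ₁).toAlgebra
  have s2 : IsScalarTower A₁ Et (FractionRing E) := IsScalarTower.of_algebraMap_eq fun x => rfl
  have s3 : IsScalarTower A₁ (FractionRing E) K := IsScalarTower.of_algebraMap_eq fun x => by
    have h5 := congr($hρ₁ x)
    have h6 := congr($hkj (ρ₁ x))
    rw [RingHom.comp_apply] at h5 h6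
    change algebraMap Rt K (x : Rt) = kF (jEF (ρ₁ x))
    rw [h6, h5]
    rfl
  have s4 : IsScalarTower E Et (FractionRing E) := IsScalarTower.of_algebraMap_eq fun x => by
    change _ = jEF (algebraMap E Et x)
    rw [jloc_algebraMap]
  let aERt : Algebra E Rt := ((algebraMap R Rt).comp χ).toAlgebra
  have s8 : IsScalarTower E Et Rt := IsScalarTower.of_algebraMap_eq fun x => (hlEt x).symm
  have s9 : IsScalarTower E R Rt := IsScalarTower.of_algebraMap_eq fun x => rfl
  refine ⟨O₁, h1, h2, E, inferInstance, inferInstance, inferInstance, inferInstance, inferInstance,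
    χ.toAlgebra, hχ, hχP, Et, inferInstance, inferInstance, inferInstance,
    Et ⊗[A₁] C', inferInstance, inferInstance, inferInstance, inferInstance,
    ⟨aEtRt, aERt, s8, s9, ⟨?_⟩⟩, fun i => ?_⟩
  · exact (Algebra.TensorProduct.cancelBaseChange A₁ Et Rt Rt C').trans e₁.symm
  · have hpi : ((Ideal.span {t i}).comap (algebraMap E R)).IsPrime := Ideal.comap_isPrime _ _
    refine ⟨hpi, ?_⟩
    set ξ := (Ideal.span {t i}).comap (algebraMap E R) with hξ
    have h0ξ : (0 : E) ∉ ξ.primeCompl := fun h => h ξ.zero_mem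
    let N := Localization.AtPrime ξ
    let jNK : N →+* K := jloc χK hχK ξ.primeCompl h0ξ N
    let jNF : N →+* FractionRing E := jloc (algebraMap E (FractionRing E)) hEF ξ.primeCompl h0ξ N
    have hkN : kF.comp jNF = jNK := by
      refine eq_jloc χK hχK _ h0ξ N _ ?_
      rw [RingHom.comp_assoc, jloc_comp]
      exact jloc_comp _ _ _ _ _
    obtain ⟨ρ₂, hρ₂⟩ : ∃ ρ₂ : A₂ i →+* N,
        jNK.comp ρ₂ = (algebraMap (B i) K).comp (A₂ i).val.toRingHom := by
      refine AlgDesc.exists_lift _ jNK (jloc_injective _ _ _ _ _) (T₂ i : Set (A₂ i)) (hT₂ i)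
        fun g hg => ?_
      obtain ⟨x, hx⟩ := hF₂r i g hg
      obtain ⟨y, hy⟩ := hF₂s i g hg
      refine mem_range_jloc χK hχK _ h0ξ N (r := x) (m := y) ?_ ?_
      · intro hyξ
        have h7 : χ y ∈ Ideal.span {t i} := hyξ
        rw [hy] at h7
        exact hs₂ i g h7
      · change algebraMap (B i) K (g : B i) * algebraMap R K (χ y) = algebraMap R K (χ x)
        rw [hx, hy, IsScalarTower.algebraMap_apply R (B i) K, ← map_mul, hr₂,
          ← IsScalarTower.algebraMap_apply]
    let aA₂N : Algebra (A₂ i) N := ρ₂.toAlgebra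
    let aNF : Algebra N (FractionRing E) := jNF.toAlgebra
    let aA₂F : Algebra (A₂ i) (FractionRing E) := (jNF.comp ρ₂).toAlgebra
    have s5 : IsScalarTower (A₂ i) N (FractionRing E) :=
      IsScalarTower.of_algebraMap_eq fun x => rfl
    have s6 : IsScalarTower (A₂ i) (FractionRing E) K := IsScalarTower.of_algebraMap_eq fun x => by
      have h5 := congr($hρ₂ x)
      have h6 := congr($hkN (ρ₂ x))
      rw [RingHom.comp_apply] at h5 h6
      change algebraMap (B i) K (x : B i) = kF (jNF (ρ₂ x))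
      rw [h6, h5]
      rfl
    have s7 : IsScalarTower E N (FractionRing E) := IsScalarTower.of_algebraMap_eq fun x => by
      change _ = jNF (algebraMap E N x)
      rw [jloc_algebraMap]
    obtain ⟨ψ⟩ := hΛ i (FractionRing E) (by
      intro x hx
      obtain ⟨a, ha⟩ := hF₃r i x hx
      obtain ⟨b, hb⟩ := hF₃s i x hx
      refine mem_range_jloc χK hχK _ h0' (FractionRing E) (r := a) (m := b) ?_ ?_
      · rw [mem_nonZeroDivisors_iff_ne_zero]
        rintro rfl
        rw [map_zero] at hb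
        exact hs₃ x hb.symm
      · change x * algebraMap R K (χ b) = algebraMap R K (χ a)
        rw [ha, hb, hr₃])
    refine ⟨N ⊗[A₂ i] D' i, inferInstance, inferInstance, inferInstance, inferInstance, aEF, s4,
      aNF, s7, ⟨?_⟩⟩
    exact (Algebra.TensorProduct.cancelBaseChange (A₂ i) N (FractionRing E) (FractionRing E)
      (D' i)).trans (ψ.trans (Algebra.TensorProduct.cancelBaseChange A₁ Et (FractionRing E)
        (FractionRing E) C').symm)

end Groth.Agent.Pi1.H393.FiniteLevel
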