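import Mathlib.RingTheory.Smooth.NoetherianDescent
import Mathlib.RingTheory.Etale.Basic
import Mathlib.RingTheory.Smooth.Flat
import Mathlib.Algebra.MvPolynomial.Eval

/-!
# Noetherian descent of an étale algebra over `A[X_i]`

`E` étale over `MvPolynomial σ A`.  For a subring `A₁` of `A` and a subset `S` of `E`, `model A₁ S`
is the subring of `E` generated by `A₁[X_i]` and `S`.  `exists_model`: there are a finite subset
`G₀` of `A` and a finite set `S` such that `model A₁ S` is étale over `A₁[X_i]` and contains a given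
finite set for every `A₁ ⊇ G₀`.
-/

set_option autoImplicit false

open MvPolynomial TensorProduct

universe u v w

namespace Groth.Agent.Pi1.H393.MvModel

section Model

variable (σ : Type v) {A : Type u} (E : Type w) [CommRing A] [CommRing E]
  [Algebra (MvPolynomial σ A) E]

/-- The structure map `A₁[X] → E` for a subring `A₁` of `A`. -/
noncomputable def toE (A₁ : Subring A) : MvPolynomial σ A₁ →+* E :=
  (algebraMap (MvPolynomial σ A) E).comp (MvPolynomial.map A₁.subtype)

variable {E}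

/-- The subring of `E` generated by `A₁[X]` and `S`. -/
def model (A₁ : Subring A) (S : Set E) : Subring E :=
  Subring.closure (Set.range (toE σ E A₁) ∪ S)

variable {σ}

theorem toE_mem_model (A₁ : Subring A) (S : Set E) (p : MvPolynomial σ A₁) :
    toE σ E A₁ p ∈ model σ A₁ S :=
  Subring.subset_closure (Or.inl ⟨p, rfl⟩)

theorem mem_model_of_mem (A₁ : Subring A) {S : Set E} {x : E} (hx : x ∈ S) : x ∈ model σ A₁ S :=
  Subring.subset_closure (Or.inr hx)

theorem toE_apply (A₁ : Subring A) (p : MvPolynomial σ A₁) :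
    toE σ E A₁ p = algebraMap (MvPolynomial σ A) E (MvPolynomial.map A₁.subtype p) := rfl

theorem exists_map_eq (A₁ : Subring A) (p : MvPolynomial σ A) (hp : (p.coeffs : Set A) ⊆ A₁) :
    ∃ q : MvPolynomial σ A₁, MvPolynomial.map A₁.subtype q = p := by
  have h : p ∈ Set.range (MvPolynomial.map (σ := σ) A₁.subtype) := by
    rw [mem_range_map_iff_coeffs_subset]
    intro c hc
    exact ⟨⟨c, hp hc⟩, rfl⟩
  exact h

noncomputable instance algebraModel (A₁ : Subring A) (S : Set E) :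
    Algebra (MvPolynomial σ A₁) (model σ A₁ S) :=
  ((toE σ E A₁).codRestrict (model σ A₁ S) (toE_mem_model A₁ S)).toAlgebra

theorem coe_algebraMap_model (A₁ : Subring A) (S : Set E) (p : MvPolynomial σ A₁) :
    ((algebraMap (MvPolynomial σ A₁) (model σ A₁ S) p : model σ A₁ S) : E) =
      algebraMap (MvPolynomial σ A) E (MvPolynomial.map A₁.subtype p) :=
  rfl

end Model

section Main

variable (σ : Type v) (A : Type u) (E : Type w) [CommRing A] [CommRing E] [Algebra (MvPolynomial σ A) E]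

/-- Noetherian descent of an étale algebra over `A[X_i]`, in terms of subrings. -/
theorem exists_model [Algebra.Etale (MvPolynomial σ A) E] (F : Finset E) :
    ∃ (G₀ : Finset A) (S : Finset E), ∀ A₁ : Subring A, (G₀ : Set A) ⊆ A₁ →
      (F : Set E) ⊆ model σ A₁ (S : Set E) ∧
        Algebra.Etale (MvPolynomial σ A₁) (model σ A₁ (S : Set E)) := by
  classical
  obtain ⟨R₀, B₀, _, _, ⟨T, hT⟩, het, ⟨e⟩⟩ :=
    Algebra.Etale.exists_subalgebra_fg ℤ (MvPolynomial σ A) E
  obtain ⟨T₀, hT₀⟩ : (⊤ : Subalgebra R₀ B₀).FG := (inferInstance : Algebra.FiniteType R₀ B₀).out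
  let β : B₀ →+* E := e.symm.toRingHom.comp
    (Algebra.TensorProduct.includeRight : B₀ →ₐ[R₀] MvPolynomial σ A ⊗[R₀] B₀).toRingHom
  have hβ : ∀ (p : MvPolynomial σ A) (b : B₀),
      e.symm (p ⊗ₜ b) = algebraMap (MvPolynomial σ A) E p * β b := by
    intro p b
    have h1 : p ⊗ₜ[R₀] b = p • ((1 : MvPolynomial σ A) ⊗ₜ[R₀] b) := by
      rw [smul_tmul', smul_eq_mul, mul_one]
    rw [h1, map_smul, Algebra.smul_def]
    rfl
  have hβR : ∀ r : R₀, β (algebraMap R₀ B₀ r) =
      algebraMap (MvPolynomial σ A) E (r : MvPolynomial σ A) := by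
    intro r
    have h1 : (1 : MvPolynomial σ A) ⊗ₜ[R₀] algebraMap R₀ B₀ r =
        (r : MvPolynomial σ A) ⊗ₜ[R₀] (1 : B₀) := by
      rw [Algebra.algebraMap_eq_smul_one, ← smul_tmul, Algebra.smul_def, mul_one]
      rfl
    change e.symm ((1 : MvPolynomial σ A) ⊗ₜ[R₀] algebraMap R₀ B₀ r) = _
    rw [h1, hβ, map_one, mul_one]
  let S : Finset E := T₀.image β
  let G1 : Finset A := T.biUnion fun p => p.coeffs
  -- each element of `E` lies in a finitely generated model
  have hβS : ∀ (A₁ : Subring A), (∀ r : R₀, algebraMap (MvPolynomial σ A) E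
      (r : MvPolynomial σ A) ∈ model σ A₁ (S : Set E)) →
      ∀ b : B₀, β b ∈ model σ A₁ (S : Set E) := by
    intro A₁ h b
    have hb : b ∈ Algebra.adjoin R₀ (T₀ : Set B₀) := by rw [hT₀]; trivial
    induction hb using Algebra.adjoin_induction with
    | mem x hx => exact mem_model_of_mem A₁ (by simpa [S] using ⟨x, hx, rfl⟩)
    | algebraMap r => rw [hβR]; exact h r
    | add x y _ _ hx hy => rw [map_add]; exact Subring.add_mem _ hx hy
    | mul x y _ _ hx hy => rw [map_mul]; exact Subring.mul_mem _ hx hy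
  have hG1 : ∀ A₁ : Subring A, (G1 : Set A) ⊆ A₁ → ∀ r : R₀,
      ∃ p : MvPolynomial σ A₁, MvPolynomial.map A₁.subtype p = r := by
    intro A₁ hA₁ r
    have h1 : R₀ ≤ subalgebraOfSubring (MvPolynomial.map (σ := σ) A₁.subtype).range := by
      rw [← hT]
      refine Algebra.adjoin_le ?_
      intro p hp
      refine exists_map_eq A₁ p ?_
      intro c hc
      exact hA₁ (by simpa [G1] using ⟨p, hp, hc⟩)
    exact h1 r.2
  have hG1' : ∀ A₁ : Subring A, (G1 : Set A) ⊆ A₁ → ∀ b : B₀, β b ∈ model σ A₁ (S : Set E) := by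
    intro A₁ hA₁
    refine hβS A₁ fun r => ?_
    obtain ⟨p, hp⟩ := hG1 A₁ hA₁ r
    rw [← hp]
    exact toE_mem_model A₁ _ p
  have hF : ∀ x : E, ∃ Z : Finset A, ∀ A₁ : Subring A, (G1 : Set A) ⊆ A₁ → (Z : Set A) ⊆ A₁ →
      x ∈ model σ A₁ (S : Set E) := by
    have key : ∀ z : MvPolynomial σ A ⊗[R₀] B₀, ∃ Z : Finset A, ∀ A₁ : Subring A,
        (G1 : Set A) ⊆ A₁ → (Z : Set A) ⊆ A₁ → e.symm z ∈ model σ A₁ (S : Set E) := by
      intro z
      induction z with
      | zero => exact ⟨∅, fun A₁ _ _ => by rw [map_zero]; exact Subring.zero_mem _⟩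
      | tmul p b =>
        refine ⟨p.coeffs, fun A₁ h1 h2 => ?_⟩
        rw [hβ]
        obtain ⟨q, hq⟩ := exists_map_eq A₁ p h2
        refine Subring.mul_mem _ ?_ (hG1' A₁ h1 b)
        rw [← hq]
        exact toE_mem_model A₁ _ q
      | add x y hx hy =>
        obtain ⟨Z1, h1⟩ := hx
        obtain ⟨Z2, h2⟩ := hy
        refine ⟨Z1 ∪ Z2, fun A₁ h3 h4 => ?_⟩
        rw [Finset.coe_union, Set.union_subset_iff] at h4
        rw [map_add]
        exact Subring.add_mem _ (h1 A₁ h3 h4.1) (h2 A₁ h3 h4.2)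
    intro x
    obtain ⟨Z, hZ⟩ := key (e x)
    refine ⟨Z, fun A₁ h1 h2 => ?_⟩
    have := hZ A₁ h1 h2
    rwa [AlgEquiv.symm_apply_apply] at this
  choose Z hZ using hF
  refine ⟨G1 ∪ F.biUnion Z, S, fun A₁ hA₁ => ?_⟩
  rw [Finset.coe_union, Set.union_subset_iff] at hA₁
  obtain ⟨hA₁, hA₁'⟩ := hA₁
  refine ⟨fun x hx => hZ x A₁ hA₁ ?_, ?_⟩
  · refine subset_trans ?_ hA₁'
    intro y hy
    simp only [Finset.coe_biUnion, Set.mem_iUnion]
    exact ⟨x, hx, hy⟩
  -- the model is a base change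
  let ι : MvPolynomial σ A₁ →+* MvPolynomial σ A := MvPolynomial.map A₁.subtype
  have hι : Function.Injective ι := MvPolynomial.map_injective _ Subtype.val_injective
  let ε : MvPolynomial σ A₁ ≃+* ι.range := RingEquiv.ofBijective ι.rangeRestrict
    ⟨fun x y h => hι (congrArg Subtype.val h), ι.rangeRestrict_surjective⟩
  let j : R₀ →+* MvPolynomial σ A₁ := ε.symm.toRingHom.comp
    ((R₀.val.toRingHom).codRestrict ι.range fun r => hG1 A₁ hA₁ r)
  have hj : ∀ r : R₀, ι (j r) = r := by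
    intro r
    have h1 : ε (j r) = ((R₀.val.toRingHom).codRestrict ι.range fun r => hG1 A₁ hA₁ r) r :=
      ε.apply_symm_apply _
    exact congrArg Subtype.val h1
  let _ : Algebra R₀ (MvPolynomial σ A₁) := j.toAlgebra
  let ιₐ : MvPolynomial σ A₁ →ₐ[R₀] MvPolynomial σ A := { ι with commutes' := fun r => hj r }
  let ψ : MvPolynomial σ A₁ ⊗[R₀] B₀ →+* E := e.symm.toRingHom.comp
    (Algebra.TensorProduct.map ιₐ (AlgHom.id R₀ B₀)).toRingHom
  have hψ : ∀ p b, ψ (p ⊗ₜ b) = toE σ E A₁ p * β b := fun p b => hβ _ _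
  have hψinj : Function.Injective ψ := by
    refine e.symm.injective.comp ?_
    exact Module.Flat.rTensor_preserves_injective_linearMap (M := B₀) ιₐ.toLinearMap hι
  have hψmem : ∀ z, ψ z ∈ model σ A₁ (S : Set E) := by
    intro z
    induction z with
    | zero => rw [map_zero]; exact Subring.zero_mem _
    | tmul p b =>
      rw [hψ]
      exact Subring.mul_mem _ (toE_mem_model A₁ _ p) (hG1' A₁ hA₁ b)
    | add x y hx hy => rw [map_add]; exact Subring.add_mem _ hx hy
  have hψsurj : ∀ x ∈ model σ A₁ (S : Set E), ∃ z, ψ z = x := by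
    intro x hx
    induction hx using Subring.closure_induction with
    | mem x hx =>
      rcases hx with ⟨p, rfl⟩ | hx
      · exact ⟨p ⊗ₜ 1, by rw [hψ, map_one, mul_one]⟩
      · obtain ⟨t, -, rfl⟩ := Finset.mem_image.mp hx
        exact ⟨1 ⊗ₜ t, by rw [hψ, map_one, one_mul]⟩
    | zero => exact ⟨0, map_zero _⟩
    | one => exact ⟨1, map_one _⟩
    | add x y _ _ hx hy =>
      obtain ⟨z, rfl⟩ := hx
      obtain ⟨w, rfl⟩ := hy
      exact ⟨z + w, map_add _ _ _⟩
    | neg x _ hx =>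
      obtain ⟨z, rfl⟩ := hx
      exact ⟨-z, map_neg ψ z⟩
    | mul x y _ _ hx hy =>
      obtain ⟨z, rfl⟩ := hx
      obtain ⟨w, rfl⟩ := hy
      exact ⟨z * w, map_mul _ _ _⟩
  let ψ' : MvPolynomial σ A₁ ⊗[R₀] B₀ →ₐ[MvPolynomial σ A₁] model σ A₁ (S : Set E) :=
    { ψ.codRestrict (model σ A₁ (S : Set E)) hψmem with
      commutes' := fun p => by
        apply Subtype.ext
        change ψ (p ⊗ₜ 1) = toE σ E A₁ p
        rw [hψ, map_one, mul_one] }
  have hψ' : Function.Bijective ψ' := by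
    refine ⟨fun x y h => hψinj (congrArg Subtype.val h), fun x => ?_⟩
    obtain ⟨z, hz⟩ := hψsurj x.1 x.2
    exact ⟨z, Subtype.ext hz⟩
  have e' := AlgEquiv.ofBijective ψ' hψ'
  have het' : Algebra.Etale (MvPolynomial σ A₁) (MvPolynomial σ A₁ ⊗[R₀] B₀) := inferInstance
  exact @Algebra.Etale.of_equiv (MvPolynomial σ A₁) (MvPolynomial σ A₁ ⊗[R₀] B₀)
    (model σ A₁ (S : Set E)) _ _ _ _ _ het' e'

end Main

end Groth.Agent.Pi1.H393.MvModel
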